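import Mathlib.Algebra.Homology.Refinements
import Mathlib.Algebra.Homology.Additive

/-!
# The diagram chase behind the Artin-Rees lemma for complexes

`E n : A ⥤ A` are functors with monomorphisms `ι n : E n ⟶ 𝟭 A` (think of `E n F = I^n F`), `F` is a complex and
`d n : G n ⟶ F` are subcomplexes (think of `G n = I^n F`). We compare `H^p(G n)` with `E n (H^p F)`.
-/

set_option autoImplicit false

universe v u

open CategoryTheory CategoryTheory.Limits

namespace Groth.Agent.Dual.H371.ARChase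

variable {A : Type u} [Category.{v} A] [Abelian A]

theorem exists_lift {P Q R S : A} (e : P ⟶ Q) [Epi e] (m : R ⟶ S) [Mono m] (f : Q ⟶ S) (g : P ⟶ R)
    (h : g ≫ m = e ≫ f) : ∃ l : Q ⟶ R, l ≫ m = f ∧ e ≫ l = g := by
  have sq : CommSq g e m f := ⟨h⟩
  have := strongEpi_of_epi e
  have : HasLiftingProperty e m := StrongEpi.llp m
  exact ⟨sq.lift, sq.fac_right, sq.fac_left⟩

variable (E : ℕ → A ⥤ A) (ι : ∀ n, E n ⟶ 𝟭 A) (F : CochainComplex A ℤ) (G : ℕ → CochainComplex A ℤ)
  (d : ∀ n, G n ⟶ F) (p : ℤ)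

/-- The input of the chase. -/
structure Input (c : ℕ) : Prop where
  mono_ι : ∀ n K, Mono ((ι n).app K)
  mono_d : ∀ n q, Mono ((d n).f q)
  /-- transition maps -/
  trans : ∀ (m n : ℕ), m ≤ n → ∃ t : (G n).X p ⟶ (G m).X p, t ≫ (d m).f p = (d n).f p
  /-- `I^n Z ⟶ I^n F^p` -/
  incl : ∀ n, ∃ j : (E n).obj (F.cycles p) ⟶ (G n).X p, j ≫ (d n).f p = (ι n).app (F.cycles p) ≫ F.iCycles p
  /-- `I^n Z ⟶ I^n H` is an epimorphism -/
  epi : ∀ n, Epi ((E n).map (F.homologyπ p))
  /-- Artin-Rees for the cycles -/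
  arZ : ∀ (n : ℕ), c ≤ n → ∀ (T : A) (a : T ⟶ F.cycles p) (b : T ⟶ (G n).X p),
    a ≫ F.iCycles p = b ≫ (d n).f p → 
      ∃ l : T ⟶ (E (n - c)).obj (F.cycles p), l ≫ (ι (n - c)).app (F.cycles p) = a
  /-- Artin-Rees for the boundaries -/
  arB : ∀ (n : ℕ), c ≤ n → ∀ (T : A) (x : T ⟶ (G n).X p) (y : T ⟶ F.X (p - 1)),
    x ≫ (d n).f p = y ≫ F.d (p - 1) p →
    ∃ (T' : A) (π : T' ⟶ T) (_ : Epi π) (w : T' ⟶ (G (n - c)).X (p - 1)),
      w ≫ (d (n - c)).f (p - 1) ≫ F.d (p - 1) p = π ≫ x ≫ (d n).f p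

variable {E ι F G d p}

namespace Input

variable {c : ℕ} (S : Input E ι F G d p c)

include S

theorem exists_phi (n : ℕ) (hn : c ≤ n) :
    ∃ (φ : (G n).homology p ⟶ (E (n - c)).obj (F.homology p))
      (l : (G n).cycles p ⟶ (E (n - c)).obj (F.cycles p)),
      φ ≫ (ι (n - c)).app (F.homology p) = HomologicalComplex.homologyMap (d n) p ∧
      l ≫ (ι (n - c)).app (F.cycles p) = HomologicalComplex.cyclesMap (d n) p ∧
      (G n).homologyπ p ≫ φ = l ≫ (E (n - c)).map (F.homologyπ p) := by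
  have := S.mono_ι
  obtain ⟨l, hl⟩ := S.arZ n hn _ (HomologicalComplex.cyclesMap (d n) p) ((G n).iCycles p)
    (HomologicalComplex.cyclesMap_i _ _)
  obtain ⟨φ, h1, h2⟩ := exists_lift ((G n).homologyπ p) ((ι (n - c)).app (F.homology p))
    (HomologicalComplex.homologyMap (d n) p) (l ≫ (E (n - c)).map (F.homologyπ p)) (by
      rw [HomologicalComplex.homologyπ_naturality, ← hl, Category.assoc, Category.assoc]
      congr 1
      exact (ι (n - c)).naturality (F.homologyπ p))
  exact ⟨φ, l, h1, hl, h2⟩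

/-- The canonical map `I^n Z ⟶ Z (I^m F)`. -/
theorem exists_g (m n : ℕ) (hmn : m ≤ n) :
    ∃ g : (E n).obj (F.cycles p) ⟶ (G m).cycles p,
      g ≫ (G m).iCycles p ≫ (d m).f p = (ι n).app (F.cycles p) ≫ F.iCycles p := by
  obtain ⟨t, ht⟩ := S.trans m n hmn
  obtain ⟨j, hj⟩ := S.incl n
  let k := (ComplexShape.up ℤ).next p
  have := S.mono_d
  have h0 : (j ≫ t) ≫ (G m).d p k = 0 := by
    rw [← cancel_mono ((d m).f k)]
    rw [Category.assoc, ← (d m).comm, Category.assoc, reassoc_of% ht, reassoc_of% hj,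
      HomologicalComplex.iCycles_d, comp_zero, zero_comp]
  refine ⟨(G m).liftCycles (j ≫ t) k rfl h0, ?_⟩
  rw [HomologicalComplex.liftCycles_i_assoc, Category.assoc, ht, hj]

theorem exists_psi (n : ℕ) (hn : c ≤ n) :
    ∃ (ψ : (E n).obj (F.homology p) ⟶ (G (n - c)).homology p)
      (g : (E n).obj (F.cycles p) ⟶ (G (n - c)).cycles p),
      ψ ≫ HomologicalComplex.homologyMap (d (n - c)) p = (ι n).app (F.homology p) ∧
      g ≫ (G (n - c)).iCycles p ≫ (d (n - c)).f p = (ι n).app (F.cycles p) ≫ F.iCycles p ∧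
      (E n).map (F.homologyπ p) ≫ ψ = g ≫ (G (n - c)).homologyπ p := by
  have := S.mono_d
  have := S.epi
  obtain ⟨g, hg⟩ := S.exists_g (n - c) n (Nat.sub_le _ _)
  obtain ⟨j, hj⟩ := S.incl n
  have hk : kernel.ι ((E n).map (F.homologyπ p)) ≫ g ≫ (G (n - c)).homologyπ p = 0 := by
    set k := kernel.ι ((E n).map (F.homologyπ p)) with hkdef
    have h1 : (k ≫ (ι n).app (F.cycles p)) ≫ F.homologyπ p = 0 := by
      have h2 : (ι n).app (F.cycles p) ≫ F.homologyπ p =
        (E n).map (F.homologyπ p) ≫ (ι n).app (F.homology p) :=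
          ((ι n).naturality (F.homologyπ p)).symm
      rw [Category.assoc, h2, kernel.condition_assoc, zero_comp]
    obtain ⟨T, π, _, y, hy⟩ := (F.comp_homologyπ_eq_zero_iff_up_to_refinements (p - 1) p (by simp) _).1 h1
    obtain ⟨T', π', _, w, hw⟩ := S.arB n hn T (π ≫ k ≫ j) y (by
      have h3 := congr($hy ≫ F.iCycles p)
      rw [Category.assoc, Category.assoc, Category.assoc, HomologicalComplex.toCycles_i] at h3
      rw [Category.assoc, Category.assoc, hj, h3])
    have h4 : π' ≫ π ≫ k ≫ g = w ≫ (G (n - c)).toCycles (p - 1) p := by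
      rw [← cancel_mono ((G (n - c)).iCycles p), ← cancel_mono ((d (n - c)).f p)]
      simp only [Category.assoc, HomologicalComplex.toCycles_i_assoc, hg]
      rw [← (d (n - c)).comm, hw]
      simp only [Category.assoc, hj]
    rw [← cancel_epi π, ← cancel_epi π', comp_zero, comp_zero]
    have h5 := congr($h4 ≫ (G (n - c)).homologyπ p)
    simp only [Category.assoc] at h5
    rw [h5, HomologicalComplex.toCycles_comp_homologyπ, comp_zero]
  refine ⟨Abelian.epiDesc _ _ hk, g, ?_, hg, Abelian.comp_epiDesc _ _ hk⟩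
  rw [← cancel_epi ((E n).map (F.homologyπ p)), Abelian.comp_epiDesc_assoc, Category.assoc,
    HomologicalComplex.homologyπ_naturality]
  have h6 : g ≫ HomologicalComplex.cyclesMap (d (n - c)) p = (ι n).app (F.cycles p) := by
    rw [← cancel_mono (F.iCycles p), Category.assoc, HomologicalComplex.cyclesMap_i, hg]
  rw [reassoc_of% h6]
  exact ((ι n).naturality (F.homologyπ p)).symm

theorem main : ∃ (φ : ∀ n : ℕ, (G n).homology p ⟶ (E (n - c)).obj (F.homology p))
    (ψ : ∀ n : ℕ, (E n).obj (F.homology p) ⟶ (G (n - c)).homology p),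
    (∀ n : ℕ, c ≤ n → φ n ≫ (ι (n - c)).app (F.homology p) = HomologicalComplex.homologyMap (d n) p) ∧
    (∀ n : ℕ, c ≤ n → ψ n ≫ HomologicalComplex.homologyMap (d (n - c)) p = (ι n).app (F.homology p)) ∧
    (∀ n : ℕ, 2 * c ≤ n → (ψ n ≫ φ (n - c)) ≫ (ι (n - c - c)).app (F.homology p) =
      (ι n).app (F.homology p)) ∧
    ∀ n : ℕ, 2 * c ≤ n → ∀ t : G n ⟶ G (n - c - c), t ≫ d (n - c - c) = d n →
      φ n ≫ ψ (n - c) = HomologicalComplex.homologyMap t p := by
  classical
  have := S.mono_ι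
  have := S.mono_d
  choose φ l h1 h2 h3 using S.exists_phi
  choose ψ g k1 k2 k3 using S.exists_psi
  refine ⟨fun n => if h : c ≤ n then φ n h else 0, fun n => if h : c ≤ n then ψ n h else 0,
    fun n hn => ?_, fun n hn => ?_, fun n hn => ?_, fun n hn t ht => ?_⟩
  · beta_reduce
    rw [dif_pos hn, h1]
  · beta_reduce
    rw [dif_pos hn, k1]
  · beta_reduce
    rw [dif_pos (by omega : c ≤ n), dif_pos (by omega : c ≤ n - c), Category.assoc, h1, k1]
  · beta_reduce
    rw [dif_pos (by omega : c ≤ n), dif_pos (by omega : c ≤ n - c)]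
    rw [← cancel_epi ((G n).homologyπ p), reassoc_of% (h3 n (by omega)), k3,
      HomologicalComplex.homologyπ_naturality, ← Category.assoc]
    congr 1
    rw [← cancel_mono ((G (n - c - c)).iCycles p), ← cancel_mono ((d (n - c - c)).f p)]
    rw [Category.assoc, Category.assoc, k2, reassoc_of% (h2 n (by omega)),
      HomologicalComplex.cyclesMap_i, HomologicalComplex.cyclesMap_i, Category.assoc,
      ← HomologicalComplex.comp_f, ht]

end Input

end Groth.Agent.Dual.H371.ARChase
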