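import Groth.Agent.Dual.H371.ARChase
import Groth.Agent.Dual.H371.IdealMul
import Groth.Agent.Sga67.CohBasic

/-!
# Artin-Rees for the Deligne system of a complex of coherent modules
-/

set_option autoImplicit false
universe u

open CategoryTheory CategoryTheory.Limits AlgebraicGeometry Opposite

namespace Groth.Agent.Dual.H371.DeligneAR

open Groth.Agent.Dual.H371.IdealMul Groth.Agent.Sga67.CohBasic

variable {X : Scheme.{u}}

/-- The inclusion `K · F ⟶ F` as a natural transformation. -/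
noncomputable def idealMulNat (K : X.IdealSheafData) : Dual3.idealMul K ⟶ 𝟭 X.Modules where
  app F := Dual3.idealMulι K F
  naturality _ _ f := Dual3.idealMul_map_ι K f

/-- The constant in Artin-Rees can be enlarged. -/
theorem artinRees_mono {I : X.IdealSheafData} {K F : X.Modules} {i : K ⟶ F}
    (hK : Coh.IsQCoh K) {c c' : ℕ} (hcc : c ≤ c')
    (h : ∀ n : ℕ, c ≤ n → ∀ (T : X.Modules) (a : T ⟶ K)
      (b : T ⟶ (Dual3.idealMul (I ^ n)).obj F), a ≫ i = b ≫ Dual3.idealMulι (I ^ n) F →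
      ∃ l : T ⟶ (Dual3.idealMul (I ^ (n - c))).obj K, l ≫ Dual3.idealMulι (I ^ (n - c)) K = a) :
    ∀ n : ℕ, c' ≤ n → ∀ (T : X.Modules) (a : T ⟶ K)
      (b : T ⟶ (Dual3.idealMul (I ^ n)).obj F), a ≫ i = b ≫ Dual3.idealMulι (I ^ n) F →
      ∃ l : T ⟶ (Dual3.idealMul (I ^ (n - c'))).obj K,
        l ≫ Dual3.idealMulι (I ^ (n - c')) K = a := by
  intro n hn T a b hab
  obtain ⟨l, hl⟩ := h n (hcc.trans hn) T a b hab
  have hle : I ^ (n - c) ≤ I ^ (n - c') := fun U => Ideal.pow_le_pow_right (by omega)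
  obtain ⟨t, ht⟩ := exists_trans hle hK
  exact ⟨l ≫ t, by rw [Category.assoc, ht, hl]⟩

theorem isCoh_cycles [IsLocallyNoetherian X] (F : CochainComplex X.Modules ℤ)
    (hF : ∀ q, Coh.IsCoh (F.X q)) (p : ℤ) : Coh.IsCoh (F.cycles p) :=
  isCoh_of_iso (IsLimit.conePointUniqueUpToIso (limit.isLimit _)
    (F.cyclesIsKernel p (p + 1) (by simp))) (isCoh_kernel (F.d p (p + 1)) (hF p) (hF (p + 1)).1)

theorem isCoh_homology [IsLocallyNoetherian X] (F : CochainComplex X.Modules ℤ)
    (hF : ∀ q, Coh.IsCoh (F.X q)) (p : ℤ) : Coh.IsCoh (F.homology p) :=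
  isCoh_of_iso (IsColimit.coconePointUniqueUpToIso (colimit.isColimit _)
    (F.homologyIsCokernel (p - 1) p (by simp)))
    (isCoh_cokernel (F.toCycles (p - 1) p) (hF (p - 1)).1 (isCoh_cycles F hF p))

/-- The input of the diagram chase. -/
theorem exists_input [IsNoetherian X] (I : X.IdealSheafData) (F : CochainComplex X.Modules ℤ)
    (hF : ∀ q : ℤ, Coh.IsCoh (F.X q)) (p : ℤ) : ∃ c : ℕ, 0 < c ∧
      ARChase.Input (fun n => Dual3.idealMul (I ^ n)) (fun n => idealMulNat (I ^ n)) F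
        (fun n => (Dual3.deligne I n).obj F) (fun n => Dual3.deligneι I n F) p c := by
  have hZ := isCoh_cycles F hF p
  have hH := isCoh_homology F hF p
  have hB : Coh.IsCoh (Abelian.image (F.d (p - 1) p)) := isCoh_image _ (hF _) (hF _).1
  obtain ⟨c₁, h₁⟩ := artinRees I (F.iCycles p) hZ.1 (hF p)
  obtain ⟨c₂, h₂⟩ := artinRees I (Abelian.image.ι (F.d (p - 1) p)) hB.1 (hF p)
  refine ⟨max (max c₁ c₂) 1, by simp, ?_⟩
  have h₁' := artinRees_mono (c' := max (max c₁ c₂) 1) hZ.1 (by simp) h₁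
  have h₂' := artinRees_mono (c' := max (max c₁ c₂) 1) hB.1 (by simp) h₂
  generalize max (max c₁ c₂) 1 = c at h₁' h₂'
  exact
    { mono_ι := fun n K => inferInstanceAs (Mono (Dual3.idealMulι (I ^ n) K))
      mono_d := fun n q => inferInstanceAs (Mono (Dual3.idealMulι (I ^ n) (F.X q)))
      trans := fun m n hmn => exists_trans (fun U => Ideal.pow_le_pow_right hmn) (hF p).1
      incl := fun n => ⟨(Dual3.idealMul (I ^ n)).map (F.iCycles p), Dual3.idealMul_map_ι _ _⟩
      epi := fun n => epi_map (I ^ n) hZ.1 hH.1 (F.homologyπ p)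
      arZ := fun n hn T a b hab => h₁' n hn T a b hab
      arB := fun n hn T x y hxy => by
        let e := Abelian.factorThruImage (F.d (p - 1) p)
        have he : e ≫ Abelian.image.ι (F.d (p - 1) p) = F.d (p - 1) p := Abelian.image.fac _
        obtain ⟨l, hl⟩ := h₂' n hn T (y ≫ e) x (by
          rw [Category.assoc, he, ← hxy]
          rfl)
        have := epi_map (I ^ (n - c)) (hF (p - 1)).1 hB.1 e
        obtain ⟨T', π, hπ, w, hw⟩ := surjective_up_to_refinements_of_epi
          ((Dual3.idealMul (I ^ (n - c))).map e) l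
        refine ⟨T', π, hπ, w, ?_⟩
        rw [hxy, ← he, ← Category.assoc y, ← hl, Category.assoc, reassoc_of% hw,
          Dual3.idealMul_map_ι_assoc]
        rfl }

end Groth.Agent.Dual.H371.DeligneAR
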